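import Cfsg.Agent.TwoF.XS.Rep
import Cfsg.Agent.TwoF.XL.Base
import Cfsg.Agent.H175.BdSU

/-!
# TwoF / XL / UP2: Heisenberg bounds for the representations of `SU_n(q)` with central kernel (helper33)
-/

set_option autoImplicit false

namespace Cfsg.Agent.TwoF.XL.UP2

open Cfsg.Agent.TwoF.Gen Module Subgroup
open scoped commutatorElement

section abs

variable {k : Type*} [Field k] {Y : Type*} [Group Y] {V : Type*} [AddCommGroup V] [Module k V]
  {ρ : Representation k Y V}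

/-- the group generated by `Z` and an element that centralises it -/
def adj (Z : Subgroup Y) (g : Y) (h : ∀ z ∈ Z, Commute g z) : Subgroup Y where
  carrier := {x | ∃ i : ℤ, ∃ z ∈ Z, x = g ^ i * z}
  mul_mem' := by
    rintro _ _ ⟨i, z, hz, rfl⟩ ⟨j, w, hw, rfl⟩
    refine ⟨i + j, z * w, mul_mem hz hw, ?_⟩
    rw [zpow_add, mul_assoc, mul_assoc, ← mul_assoc z, ← ((h z hz).zpow_left j).eq, mul_assoc]
  one_mem' := ⟨0, 1, one_mem _, by rw [zpow_zero, one_mul]⟩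
  inv_mem' := by
    rintro _ ⟨i, z, hz, rfl⟩
    refine ⟨-i, z⁻¹, inv_mem hz, ?_⟩
    rw [mul_inv_rev, ← zpow_neg, ((h _ (inv_mem hz)).zpow_left (-i)).eq]

/-- **non-central elements of a Heisenberg group** -/
theorem cod_elt [FiniteDimensional k V] [Finite Y] {Z Q : Subgroup Y} {r : ℕ} (hr : r.Prime) (hk : (r : k) ≠ 0)
    (hZQ : Z ≤ Q) (hc : ∀ a ∈ Q, ∀ b ∈ Z, a * b = b * a) (he : ∀ g ∈ Q, g ^ r = 1)
    (hfull : ∀ t ∈ Q, t ∉ Z → ∀ z ∈ Z, ∃ y ∈ Q, ⁅t, y⁆ = z) {g : Y} (hg : g ∈ Q) (hgZ : g ∉ Z) :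
    (r - 1) * cod ρ Z ≤ r * cod ρ (zpowers g) := by
  have h0 : ∀ z ∈ Z, Commute g z := hc g hg
  refine XS.avg_coset (R := adj Z g h0) hr hk ?_ ?_ ?_ ?_
  · refine lt_of_le_of_ne (fun z hz => ⟨0, z, hz, by rw [zpow_zero, one_mul]⟩) fun e => hgZ ?_
    rw [e]
    exact ⟨1, 1, one_mem _, by rw [zpow_one, mul_one]⟩
  · rintro _ ⟨i, z, hz, rfl⟩ _ ⟨j, w, hw, rfl⟩
    have h1 : Commute z w := hc z (hZQ hz) w hw
    exact (((Commute.refl g).zpow_zpow i j).mul_right ((h0 w hw).zpow_left i)).mul_left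
      (((h0 z hz).zpow_left j).symm.mul_right h1)
  · rintro _ ⟨i, z, hz, rfl⟩
    exact he _ (mul_mem (zpow_mem hg i) (hZQ hz))
  · rintro _ ⟨i, z, hz, rfl⟩ h1
    obtain ⟨y, -, hy⟩ := hfull _ (zpow_mem hg i) (fun e => h1 (mul_mem e hz)) _ (inv_mem hz)
    have h2 : g ^ i * z = y * g ^ i * y⁻¹ := by
      rw [((h0 z hz).zpow_left i).eq, ← inv_inv z, ← hy, commutatorElement_def]
      group
    rw [h2, cod_zpowers_conj]
    exact cod_le_of_mem (zpow_mem (mem_zpowers g) i)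

end abs

open Cfsg.Agent.LieClassical.HermBasic Cfsg.Agent.LieClassical.HermSiegel Cfsg.Agent.LieClassical.HermGen
  Cfsg.Agent.ClassicalGeometry.PSUAutBasic Cfsg.Agent.ClassicalGeometry.PSUAutSylow Cfsg.Agent.H934.IdxPSU
  Cfsg.Agent.H175.BdSU

variable {F : Type} [Field F] [Fintype F] {q n : ℕ} (hF : Fintype.card F = q ^ 2)
include hF

theorem cast_pow (j : ℕ) : (j : F) ^ q = j := map_natCast (conj hF) j

theorem siegel_pow {u w : Fin n → F} {μ : F} (h : IsSiegel q u w μ) (j : ℕ) :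
    ∃ h' : IsSiegel q u ((j : F) • w) (j * μ - (j.choose 2 : ℕ) * hermForm n F q w w),
      siegel hF u w μ h ^ j = siegel hF u _ _ h' := by
  induction j with
  | zero =>
    have h0 : IsSiegel q u (((0 : ℕ) : F) • w) ((0 : ℕ) * μ - ((0 : ℕ).choose 2 : ℕ) * hermForm n F q w w) := by
      simpa using IsSiegel.zero hF h.iso
    exact ⟨h0, by
      rw [pow_zero, ← siegel_zero hF (IsSiegel.zero hF h.iso)]
      exact siegel_congr hF _ _ rfl (by simp) (by simp)⟩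
  | succ j ih =>
    obtain ⟨h', e⟩ := ih
    have e1 : (j : F) • w + w = ((j + 1 : ℕ) : F) • w := by rw [Nat.cast_succ, add_smul, one_smul]
    have e2 : j * μ - (j.choose 2 : ℕ) * hermForm n F q w w + μ - hermForm n F q w ((j : F) • w) =
        (j + 1 : ℕ) * μ - ((j + 1).choose 2 : ℕ) * hermForm n F q w w := by
      rw [herm_smul_right, cast_pow hF, Nat.choose_succ_succ', Nat.choose_one_right]
      push_cast
      ring
    have h1 := h'.mul hF h
    rw [e1, e2] at h1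
    exact ⟨h1, by rw [pow_succ, e, siegel_mul]; exact siegel_congr hF _ _ rfl e1 e2⟩

variable {r : ℕ} [Fact r.Prime] [CharP F r]

theorem exp_siegG (hr : r ≠ 2) {u : Fin n → F} (hu : hermForm n F q u u = 0) : ∀ g ∈ siegG hF u hu, g ^ r = 1 := by
  rintro _ ⟨w, μ, h, rfl⟩
  obtain ⟨h', e⟩ := siegel_pow hF h r
  have h2 : 2 < r := lt_of_le_of_ne (Fact.out : r.Prime).two_le hr.symm
  have h3 : ((r.choose 2 : ℕ) : F) = 0 :=
    (CharP.cast_eq_zero_iff F r _).2 ((Fact.out : r.Prime).dvd_choose_self two_ne_zero h2)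
  rw [e, ← siegel_zero hF (IsSiegel.zero hF hu)]
  exact siegel_congr hF _ _ rfl (by rw [CharP.cast_eq_zero, zero_smul])
    (by rw [CharP.cast_eq_zero, h3, zero_mul, zero_mul, sub_zero])

omit [Fact r.Prime] [CharP F r] in
theorem comm_Q {u : Fin n → F} (hu : hermForm n F q u u = 0) :
    ∀ a ∈ siegG hF u hu, ∀ b ∈ transvG hF u hu, a * b = b * a := by
  rintro _ ⟨w, μ, h, rfl⟩ _ ⟨ν, hν, rfl⟩
  exact transv_comm hF h hν

omit [Fact r.Prime] [CharP F r] in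
theorem full_Q {u : Fin n → F} (h0 : u ≠ 0) (hu : hermForm n F q u u = 0) :
    ∀ t ∈ siegG hF u hu, t ∉ transvG hF u hu → ∀ z ∈ transvG hF u hu, ∃ y ∈ siegG hF u hu, ⁅t, y⁆ = z := by
  intro t ht h1 z hz
  obtain ⟨y, -, hy⟩ := (hyp hF h0 hu).special ⟨t, ht⟩ (mem_top _) h1 ⟨z, transvG_le_siegG hF hu hz⟩ hz
  exact ⟨y, y.2, congrArg Subtype.val hy⟩

omit [Fact r.Prime] [CharP F r] in
theorem tr_Z (hn : 3 ≤ n) {u : Fin n → F} (h0 : u ≠ 0) (hu : hermForm n F q u u = 0) : Tr (transvG hF u hu) := by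
  rintro _ ⟨μ, hμ, rfl⟩ h1 _ ⟨ν, hν, rfl⟩ h2
  have hμ0 : μ ≠ 0 := fun e => h1 (transv_eq_one hF hu hμ e)
  have hν0 : ν ≠ 0 := fun e => h2 (transv_eq_one hF hu hν e)
  have hl : (ν / μ) ^ q = ν / μ := by
    rw [div_pow, show ν ^ q = -ν by linear_combination hν, show μ ^ q = -μ by linear_combination hμ, neg_div_neg_eq]
  obtain ⟨g, hg⟩ := exists_torus hF hn h0 hu hl (div_ne_zero hν0 hμ0)
  have h3 : ∀ x : F, x + x ^ q = 0 → ν / μ * x + (ν / μ * x) ^ q = 0 := fun x hx => by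
    rw [mul_pow, hl]
    linear_combination ν / μ * hx
  refine ⟨g⁻¹, inv_mem (H934.Heis.mem_norm ?_), ?_⟩
  · rintro _ ⟨x, hx, rfl⟩
    exact ⟨_, _, hg x hx (h3 x hx)⟩
  · rw [inv_inv, hg μ hμ (h3 μ hμ)]
    exact siegel_congr hF _ _ rfl rfl (div_mul_cancel₀ ν hμ0)

omit [Fact r.Prime] [CharP F r] in
theorem card_Z {u : Fin n → F} (h0 : u ≠ 0) (hu : hermForm n F q u u = 0) : Nat.card (transvG hF u hu) = q :=
  le_antisymm (card_transvG_le hF hu) (card_transvG hF h0 hu)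

omit [Fact r.Prime] [CharP F r] in
theorem card_Q (hn : 3 ≤ n) {u : Fin n → F} (h0 : u ≠ 0) (hu : hermForm n F q u u = 0) :
    (q ^ 2) ^ (n - 2) * q ≤ Nat.card (siegG hF u hu) := by
  obtain ⟨e, f, H⟩ := exists_frame (F := F) (n := n) hF (by omega)
  have he0 : e ≠ 0 := by
    rintro rfl
    have := H.ef
    rw [herm_zero_left] at this
    exact zero_ne_one this
  obtain ⟨g, -, hg⟩ := exists_map_iso hF hn le_rfl (mem_coordSub_top e) (mem_coordSub_top u) he0 h0 H.ee hu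
  subst hg
  refine (card_siegG hF H).trans (Nat.card_le_card_of_injective
    (fun x : siegG hF e H.ee => (⟨g * x * g⁻¹, ?_⟩ : siegG hF (act g e) hu)) fun x y h => Subtype.ext ?_)
  · obtain ⟨_, w, μ, h, rfl⟩ := x
    exact ⟨_, _, _, conj_siegel hF h g⟩
  · exact mul_left_cancel (mul_right_cancel (congrArg Subtype.val h))

omit [Fact r.Prime] [CharP F r] in
theorem le_relIndex (hn : 3 ≤ n) {u : Fin n → F} (h0 : u ≠ 0) (hu : hermForm n F q u u = 0) :
    (q ^ (n - 2)) ^ 2 ≤ (transvG hF u hu).relIndex (siegG hF u hu) := by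
  have h1 := card_Q hF hn h0 hu
  rw [← H934.Heis.card_mul_rel (transvG_le_siegG hF hu), card_Z hF h0 hu, mul_comm] at h1
  rw [← pow_mul, mul_comm, pow_mul]
  exact Nat.le_of_mul_le_mul_left h1 (q_pos hF)

variable {k : Type*} [Field k] {V : Type*} [AddCommGroup V] [Module k V] [FiniteDimensional k V]
  {σ : Representation k (SU n F q) V}

/-- **the transvection groups** -/
theorem cod_Z (hr : r ≠ 2) (hk : (r : k) ≠ 0) (hn : 3 ≤ n) (hσ : ∀ g, σ g = 1 → g ∈ center (SU n F q))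
    {u : Fin n → F} (h0 : u ≠ 0) (hu : hermForm n F q u u = 0) :
    (q - 1) * q ^ (n - 2) ≤ cod σ (transvG hF u hu) := by
  have he := fun g hg => exp_siegG hF hr hu g (transvG_le_siegG hF hu hg)
  have := heis_lb (ρ := σ) (Fact.out : r.Prime) hk (transvG_le_siegG hF hu) (comm_Q hF hu) he
    (fun a ha b hb => (hyp hF h0 hu).comm_mem ⟨a, ha⟩ (mem_top _) ⟨b, hb⟩ (mem_top _)) (full_Q hF h0 hu)
    (tr_Z hF hn h0 hu) ?_ (le_relIndex hF hn h0 hu)
  · rwa [card_Z hF h0 hu] at this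
  · obtain ⟨c, hc0, hc⟩ := exists_trace_zero_ne hF
    have hm : transv hF u hu c hc ∈ transvG hF u hu := ⟨_, _, rfl⟩
    refine ⟨_, hm, fun e => hc0 ?_⟩
    have h1 := eq_one_of_center_of_pow hF hn (p := r) (hσ _ e) (k := 1) (by rw [pow_one]; exact he _ hm)
    exact transv_inj hF h0 hu (h1.trans (transv_zero hF hu (by rw [zero_pow_q hF, add_zero])).symm)

omit [Fact r.Prime] [CharP F r] in
theorem siegel_notMem {u w : Fin n → F} {μ : F} (h0 : u ≠ 0) (h : IsSiegel q u w μ) (hw : ∀ a : F, w ≠ a • u) :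
    siegel hF u w μ h ∉ transvG hF u h.iso := by
  rintro ⟨ν, hν, e⟩
  obtain ⟨f, -, -, hfu⟩ := exists_partner hF h0 h.iso
  have h1 := congrArg (fun g => act g f) e
  simp only [act_siegel, act_transv, hfu, one_smul, mul_one] at h1
  refine hw (ν - (μ - hermForm n F q f w)) ?_
  rw [sub_smul]
  linear_combination (exp := 1) h1

/-- **Siegel elements** -/
theorem cod_siegel (hr : r ≠ 2) (hk : (r : k) ≠ 0) (hn : 3 ≤ n) (hσ : ∀ g, σ g = 1 → g ∈ center (SU n F q))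
    {u w : Fin n → F} {μ : F} (h0 : u ≠ 0) (h : IsSiegel q u w μ) (hw : ∀ a : F, w ≠ a • u) :
    (r - 1) * ((q - 1) * q ^ (n - 2)) ≤ r * cod σ (zpowers (siegel hF u w μ h)) :=
  (Nat.mul_le_mul_left _ (cod_Z hF hr hk hn hσ h0 h.iso)).trans
    (cod_elt (Fact.out : r.Prime) hk (transvG_le_siegG hF h.iso) (comm_Q hF h.iso) (exp_siegG hF hr h.iso)
      (full_Q hF h0 h.iso) ⟨_, _, _, rfl⟩ (siegel_notMem hF h0 h hw))

end Cfsg.Agent.TwoF.XL.UP2
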