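import Cfsg.Agent.TwoF.XL.UP2.Heis
import Cfsg.Agent.TwoF.XL.Rch
import Cfsg.Agent.TwoF.XL.Defs
import Cfsg.Agent.TwoF.XL.U33.Main
import Cfsg.Agent.Mrg.Omega.TwoF.RkPSU
import Cfsg.Agent.LieClassical.HermPerfect
import Cfsg.Agent.S2089
import Cfsg.Agent.S0279

/-!
# TwoF / XL / UP2: the rows of `U₃(3)`, `U₃(5)`, `U₃(7)`, `U₅(3)`, `p = 2` (helper33)
-/

set_option autoImplicit false

namespace Cfsg.Agent.TwoF.XL.UP2

open Cfsg.Agent.TwoF.Gen Module Subgroup XE Matrix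
open Cfsg.Agent.LieClassical.HermBasic Cfsg.Agent.LieClassical.HermSiegel
open Cfsg.Agent.ClassicalGeometry.PSUAutCount (gm toAut gm_mul gm_one herm_gm gm_mulVec_inv eq_of_toAut_eq semiConj
  toAut_pr toAut_sc_mul gm_sc_mul gm_inj sc)
open Cfsg.Agent.ClassicalGeometry.UnitAutBasic (pr pr_surjective hL)
open Cfsg.Agent.Schreier.PSU (f₁ act_semiConj_one mapGU)
open Cfsg.Agent.Omega.TwoF

variable {F : Type} [Field F] [Fintype F] {q n : ℕ} (hF : Fintype.card F = q ^ 2)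
include hF

/-- isotropic vectors in planes -/
theorem exists_iso {U : Submodule F (Fin n → F)} (h : 2 ≤ finrank F U) :
    ∃ u ∈ U, u ≠ 0 ∧ hermForm n F q u u = 0 := by
  obtain ⟨v, hv, hv0⟩ := (Submodule.ne_bot_iff U).1 fun e => by
    rw [e, finrank_bot] at h
    omega
  by_cases h1 : hermForm n F q v v = 0
  · exact ⟨v, hv, hv0, h1⟩
  obtain ⟨x, hx, hx0⟩ := (Submodule.ne_bot_iff _).1 (LinearMap.ker_ne_bot_of_finrank_lt
    (f := (hL n q v).comp U.subtype) (by rw [finrank_self]; omega))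
  have h2 : hermForm n F q x v = 0 := hx
  have h3 : hermForm n F q v x = 0 := by rw [herm_swap hF, h2, zero_pow_q hF]
  obtain ⟨c, hc⟩ := exists_norm_eq hF (c := -hermForm n F q x x / hermForm n F q v v) (by
    rw [div_pow, neg_pow_q hF, ← herm_swap hF, ← herm_swap hF])
  refine ⟨c • v + x, add_mem (U.smul_mem c hv) x.2, fun e => hx0 (Subtype.ext ?_), ?_⟩
  · have h4 := congrArg (fun y => hermForm n F q y v) e
    simp only [herm_add_left, herm_smul_left, herm_zero_left, h2, add_zero] at h4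
    rwa [(mul_eq_zero.1 h4).resolve_right h1, zero_smul, zero_add] at e
  · rw [herm_add_left, herm_add_right hF, herm_add_right hF, herm_smul_left, herm_smul_left, herm_smul_right,
      herm_smul_right, h2, h3, ← mul_assoc, hc]
    field_simp
    ring

/-- eigenvectors of a matrix whose square is a scalar -/
theorem exists_pair (hn : 3 ≤ n) (h2 : (2 : F) ≠ 0) {D : Matrix (Fin n) (Fin n) F} {a : F} (ha : a ≠ 0)
    (hD : ∀ v, D *ᵥ (D *ᵥ v) = (a * a) • v) (hs : ∀ c : F, c = a ∨ c = -a → ¬ ∀ v, D *ᵥ v = c • v) :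
    ∃ (s : F) (u w : Fin n → F), (s = a ∨ s = -a) ∧ u ≠ 0 ∧ hermForm n F q u u = 0 ∧ w ≠ 0 ∧
      D *ᵥ u = s • u ∧ D *ᵥ w = -s • w := by
  let E : F → Submodule F (Fin n → F) := fun s => LinearMap.ker (Matrix.toLin' D - s • LinearMap.id)
  have hE : ∀ s v, v ∈ E s ↔ D *ᵥ v = s • v := fun s v => by
    rw [LinearMap.mem_ker, LinearMap.sub_apply, sub_eq_zero, Matrix.toLin'_apply]
    rfl
  have h3 : ∀ s v, s * s = a * a → s • v + D *ᵥ v ∈ E s := fun s v e => by
    rw [hE, mulVec_add, mulVec_smul, hD, ← e]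
    module
  have h4 : ∀ s, s = a ∨ s = -a → ∃ w, w ≠ 0 ∧ D *ᵥ w = -s • w := fun s e => by
    by_contra h5
    push Not at h5
    refine hs s e fun v => ?_
    have h6 := h3 (-s) v (by rcases e with rfl | rfl <;> ring)
    by_contra h7
    refine h5 _ (fun e => h7 ?_) ((hE _ _).1 h6)
    linear_combination (norm := module) e
  have h5 : E a ⊔ E (-a) = ⊤ := eq_top_iff.2 fun v _ => by
    have e : v = (2 * a)⁻¹ • ((a • v + D *ᵥ v) - (-a • v + D *ᵥ v)) := by
      have : (a • v + D *ᵥ v) - (-a • v + D *ᵥ v) = (2 * a) • v := by module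
      rw [this, smul_smul, inv_mul_cancel₀ (mul_ne_zero h2 ha), one_smul]
    rw [e]
    exact Submodule.smul_mem _ _ (sub_mem (Submodule.mem_sup_left (h3 a v rfl))
      (Submodule.mem_sup_right (h3 (-a) v (neg_mul_neg a a))))
  have h6 := Submodule.finrank_sup_add_finrank_inf_eq (E a) (E (-a))
  rw [h5, finrank_top, finrank_fin_fun] at h6
  obtain ⟨s, e, h7⟩ : ∃ s, (s = a ∨ s = -a) ∧ 2 ≤ finrank F (E s) := by
    by_cases h7 : 2 ≤ finrank F (E a)
    · exact ⟨a, Or.inl rfl, h7⟩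
    · exact ⟨-a, Or.inr rfl, by omega⟩
  obtain ⟨u, hu, hu0, huu⟩ := exists_iso hF h7
  obtain ⟨w, hw0, hw⟩ := h4 s e
  exact ⟨s, u, w, e, hu0, huu, hw0, (hE _ _).1 hu, hw⟩

/-- linear involutions in odd dimension -/
theorem exists_eig (hn : 3 ≤ n) (ho : Odd n) (h2 : (2 : F) ≠ 0) {C : GU n F q}
    (h1 : (toAut C 1 : MulAut (PSU n F q)) ≠ 1) (hC : (toAut C 1 : MulAut (PSU n F q)) ^ 2 = 1) :
    ∃ (s : F) (u w : Fin n → F), s * s ^ q = 1 ∧ u ≠ 0 ∧ hermForm n F q u u = 0 ∧ w ≠ 0 ∧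
      gm C *ᵥ u = s • u ∧ gm C *ᵥ w = -s • w := by
  obtain ⟨j, rfl⟩ := ho
  obtain ⟨-, c, hc, e⟩ := eq_of_toAut_eq hF hn (A := 1) (A' := C * C) (ρ := 1) (ρ' := 1) (by
    rw [RkPSU.toAut_one, RkPSU.toAut_one, map_one, map_mul, ← pow_two, ← RkPSU.toAut_one, hC])
  rw [gm_mul, gm_one] at e
  have hc0 : c ≠ 0 := left_ne_zero_of_mul_eq_one hc
  have h3 := congrArg det e
  rw [det_mul, det_smul, det_one, mul_one, Fintype.card_fin] at h3
  have h4 := ClassicalGeometry.GUBasic.det_pow hF (herm_gm C)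
  have h5 : (gm C).det / c ^ j * ((gm C).det / c ^ j) = c := by
    rw [div_mul_div_comm, h3]
    field_simp
    ring
  have h6 : (gm C).det / c ^ j * ((gm C).det / c ^ j) ^ q = 1 := by
    rw [div_pow, div_mul_div_comm, ← pow_succ', h4, ← pow_mul, mul_comm j q, pow_mul, ← mul_pow, hc, one_pow, div_one]
  have h7 : ∀ s : F, s = (gm C).det / c ^ j ∨ s = -((gm C).det / c ^ j) → s * s ^ q = 1 := by
    rintro _ (rfl | rfl)
    · exact h6
    · rw [neg_pow_q hF, neg_mul_neg, h6]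
  obtain ⟨s, u, w, h8, h9⟩ := exists_pair hF hn h2 (D := gm C) (left_ne_zero_of_mul_eq_one h6)
    (fun v => by rw [mulVec_mulVec, e, h5, smul_mulVec, one_mulVec]) fun s hs h => h1 (by
      have : C = sc _ ⟨s, h7 s hs⟩ * 1 := gm_inj (by
        rw [gm_sc_mul, gm_one]
        ext i l
        simpa [Matrix.one_apply, Pi.single_apply] using congrFun (h (Pi.single l 1)) i)
      rw [this, toAut_sc_mul, RkPSU.toAut_one, map_one])
  exact ⟨s, u, w, h7 s h8, h9⟩

theorem conj_eig {C : GU n F q} {s μ : F} {u w : Fin n → F} (hs : s * s ^ q = 1) (hu : gm C *ᵥ u = s • u)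
    (hw : gm C *ᵥ w = -s • w) (h : IsSiegel q u w μ) (h' : IsSiegel q u (-w) μ) :
    semiConj C 1 (siegel hF u w μ h) = siegel hF u (-w) μ h' := by
  refine ext_act fun y => ?_
  rw [← gm_mulVec_inv C y, act_semiConj_one]
  generalize gm C⁻¹ *ᵥ y = x
  have h1 : hermForm n F q (gm C *ᵥ x) u = s * hermForm n F q x u := by
    rw [← herm_gm C x u, hu, herm_smul_right, ← mul_assoc, hs, one_mul]
  have h2 : hermForm n F q (gm C *ᵥ x) w = -s * hermForm n F q x w := by
    rw [← herm_gm C x w, hw, herm_smul_right, neg_pow_q hF, ← mul_assoc, neg_mul_neg, hs, one_mul]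
  rw [act_siegel, act_siegel, herm_neg_right hF, h1, h2, mulVec_add, mulVec_add, mulVec_smul, mulVec_smul, hu, hw]
  module

variable (hn : 3 ≤ n) (h32 : ¬ (n = 3 ∧ q = 2)) (hexc : (n, q) ∉ ({(4, 2), (4, 3), (6, 2)} : Set (ℕ × ℕ)))
include hn h32 hexc

theorem exists_lift {p : ℕ} [Fact p.Prime] {Y : Type} [Group Y] [Finite Y] {V : Type} [AddCommGroup V]
    [Module (ZMod p) V] {K : Subgroup Y} {ρ : Representation (ZMod p) Y V} {π : K →* PSU n F q}
    {φ : Y →* MulAut (PSU n F q)} (H : Sit p K ρ π φ) : ∃ ι : SU n F q →* Y, Cen ρ ι ∧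
      ∀ (y : Y) (C : GU n F q) (τ : F ≃+* F), φ y = toAut C τ → ∀ g, y * ι g * y⁻¹ = ι (semiConj C τ g) := by
  have hp := LieClassical.HermPerfect.commutator_SU_eq_top hF hn h32
  have hk : (pr n F q).ker = center (SU n F q) := QuotientGroup.ker_mk' _
  have : NeZero (Nat.gcd n (q + 1)) := ⟨fun h => absurd (Nat.gcd_eq_zero_iff.1 h).1 (by omega)⟩
  obtain ⟨ι, L⟩ := exists_lf H hp pr_surjective hk.le (S2089.result n q hF hn h32 hexc) (by
    rw [hk, S0279.result hF n hn, Nat.card_congr Multiplicative.toAdd, Nat.card_zmod])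
  have := H.normal
  exact ⟨ι, L.cen H.faithful hk.le, fun y C τ hy => L.conj H.toFrm hp (α := (semiConj C τ).toMonoidHom)
    fun g => by rw [hy]; exact (toAut_pr C τ g).symm⟩

variable {r : ℕ} [Fact r.Prime] [CharP F r] (hr : r ≠ 2)
include hr

omit [Fintype F] hF hn h32 hexc in
theorem two_ne : (2 : F) ≠ 0 := fun h =>
  hr ((Nat.prime_dvd_prime_iff_eq Fact.out Nat.prime_two).1 ((CharP.cast_eq_zero_iff F r 2).1 (by exact_mod_cast h)))

/-- **linear involutions** -/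
theorem le_lin (ho : Odd n) {C : GU n F q} (h1 : (toAut C 1 : MulAut (PSU n F q)) ≠ 1)
    (hC : (toAut C 1 : MulAut (PSU n F q)) ^ 2 = 1) {c : ℕ}
    (hc : r * (2 * (c - 1)) < (r - 1) * ((q - 1) * q ^ (n - 2))) : Le 2 (toAut C 1 : MulAut (PSU n F q)) c := by
  have h2 : (2 : F) ≠ 0 := two_ne hr
  obtain ⟨s, u, w, hs, hu0, huu, hw0, hu, hw⟩ := exists_eig hF hn ho h2 h1 hC
  have hwu : hermForm n F q w u = 0 := by
    have := herm_gm C w u
    rw [hu, hw, herm_smul_left, herm_smul_right, ← mul_assoc, neg_mul, hs] at this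
    exact (mul_eq_zero.1 (by linear_combination -this : 2 * hermForm n F q w u = 0)).resolve_left h2
  obtain ⟨μ, hμ⟩ := exists_trace_eq hF (c := -hermForm n F q w w) (by rw [neg_pow_q hF, ← herm_swap hF])
  have h : IsSiegel q u w μ := ⟨huu, hwu, by linear_combination hμ⟩
  have h' : IsSiegel q u (-w) μ := ⟨huu, by rw [herm_neg_left, hwu, neg_zero], by
    rw [herm_neg_left, herm_neg_right hF]; linear_combination hμ⟩
  have h3 : ∀ a : F, -w + -w ≠ a • u := fun a e => by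
    have h4 := congrArg (gm C *ᵥ ·) e
    simp only [mulVec_add, mulVec_neg, mulVec_smul, hu, hw] at h4
    have h5 : (2 * 2 * s) • w = 0 := by linear_combination (norm := module) h4 - s • e
    exact hw0 ((smul_eq_zero.1 h5).resolve_left (mul_ne_zero (mul_ne_zero h2 h2) (left_ne_zero_of_mul_eq_one hs)))
  refine le_of_elt fun Y _ _ V _ _ _ K ρ π φ H y hy => ?_
  obtain ⟨ι, hι, hj⟩ := exists_lift hF hn h32 hexc H
  have h4 := cod_zpowers_commutator_le (ρ := ρ) y (ι (siegel hF u w μ h))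
  rw [hj y C 1 hy, conj_eig hF hs hu hw h h', ← map_inv, ← map_mul, siegel_inv, siegel_mul,
    ← MonoidHom.map_zpowers, ← cod_comp] at h4
  have h5 := cod_siegel hF (σ := ρ.comp ι) hr (cast_ne_zero Fact.out hr) hn hι hu0 (h'.mul hF (h.inv hF)) h3
  by_contra h6
  have h7 : r * (2 * cod ρ (zpowers y)) ≤ r * (2 * (c - 1)) := Nat.mul_le_mul_left _ (by omega)
  have h8 := Nat.mul_le_mul_left r h4
  omega

/-- all involutions -/
theorem le_three (h42 : ¬ (n = 4 ∧ q = 2)) (hc : (n + 2) * 2 < (q - 1) * q ^ (n - 2)) {α : MulAut (PSU n F q)}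
    (h1 : α ≠ 1) (h2 : α ^ 2 = 1) : Le 2 α 3 := by
  refine le_of_elt fun Y _ _ V _ _ _ K ρ π φ H y hy => ?_
  obtain ⟨ι, hι, -⟩ := exists_lift hF hn h32 hexc H
  obtain ⟨u, -, hu0, hu⟩ := exists_iso hF (U := (⊤ : Submodule F (Fin n → F)))
    (by rw [finrank_top, finrank_fin_fun]; omega)
  have h3 := (cod_Z hF (σ := ρ.comp ι) hr (cast_ne_zero Fact.out hr) hn hι hu0 hu).trans (cod_le_finrank _)
  have h4 := finrank_le_of_reach H (a := y) (reach_U' hF hn h32 h42 (by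
    rw [hy, orderOf_eq_prime h2 h1]; exact Nat.prime_two))
  by_contra h5
  have h6 : (n + 2) * cod ρ (zpowers y) ≤ (n + 2) * 2 := Nat.mul_le_mul_left _ (by omega)
  omega

omit hexc hr [Fact r.Prime] [CharP F r] in
theorem exists_lin {E : Subgroup (MulAut (PSU n F q))} (hE : ∀ α ∈ E, α ^ 2 = 1) (hc : 2 < Nat.card E) :
    ∃ C : GU n F q, toAut C 1 ∈ E ∧ (toAut C 1 : MulAut (PSU n F q)) ≠ 1 := by
  classical
  have key : ∀ s : Finset (MulAut (PSU n F q)), s.card ≤ 2 → ∃ a ∈ E, a ∉ s := fun s hs => by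
    by_contra h
    push Not at h
    have := Nat.card_le_card_of_injective (fun a : E => (⟨a, h a a.2⟩ : s))
      fun a b e => Subtype.ext (congrArg Subtype.val e :)
    rw [Nat.card_eq_fintype_card (α := s), Fintype.card_coe] at this
    omega
  obtain ⟨α, hα, h1⟩ := key {1} (by simp)
  obtain ⟨β, hβ, h2⟩ := key {1, α} Finset.card_le_two
  simp only [Finset.mem_insert, Finset.mem_singleton, not_or] at h1 h2
  obtain ⟨C, σ, rfl⟩ := ClassicalGeometry.PSUAutMain.exists_toAut hF hn h32 α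
  obtain ⟨D, τ, rfl⟩ := ClassicalGeometry.PSUAutMain.exists_toAut hF hn h32 β
  have hsq : ∀ (C : GU n F q) (σ : F ≃+* F), toAut C σ ∈ E → σ * σ = 1 := fun C σ h =>
    (eq_of_toAut_eq hF hn (A := 1) (ρ := 1) (by
      rw [RkPSU.toAut_one, map_one, ← RkPSU.toAut_mul C C, ← pow_two, hE _ h])).1
  by_cases h3 : σ = 1
  · subst h3
    exact ⟨C, hα, h1⟩
  by_cases h4 : τ = 1
  · subst h4
    exact ⟨D, hβ, h2.1⟩
  obtain rfl := RkPSL.field_inv_unique (hsq C σ hα) (hsq D τ hβ) h3 h4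
  have h5 := RkPSU.toAut_mul C D σ σ
  rw [hsq C σ hα] at h5
  refine ⟨_, h5 ▸ mul_mem hα hβ, fun e => h2.2 ?_⟩
  rw [← h5] at e
  exact mul_left_cancel (e.trans ((pow_two _).symm.trans (hE _ hα)).symm)

omit h32 hexc in
theorem card_le {E : Subgroup (MulAut (PSU n F q))} (hE : IsElementaryAbelian 2 E) :
    Nat.card E ≤ 2 ^ (RkLin.rk n + 1) :=
  RkPSU.rkAut hF (two_ne hr) hn E fun x hx => (pow_two x).symm.trans (hE.2 x hx)

/-- **the generic rows** -/
theorem noOff_gen (ho : Odd n) (hc : (n + 2) * 2 < (q - 1) * q ^ (n - 2))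
    (hd : r * (2 * (2 * (RkLin.rk n + 1))) < (r - 1) * ((q - 1) * q ^ (n - 2))) : NoOff 2 (PSU n F q) := by
  refine noOff_of_lo fun E hE j hj hcard => ?_
  have h1 := card_le hF hn hr hE
  rw [hcard, Nat.pow_le_pow_iff_right one_lt_two] at h1
  by_cases h2 : j = 1
  · obtain ⟨α, hα, h3⟩ := exists_ne_one hj hcard
    subst h2
    exact (le_three hF hn h32 hexc hr (fun h => by rw [h.1] at ho; exact absurd ho (by decide)) hc h3
      (hE.2 α hα)).lo hα
  · obtain ⟨C, hC, h3⟩ := exists_lin hF hn h32 hE.2 (by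
      rw [hcard]
      exact lt_of_lt_of_le (by norm_num) (Nat.pow_le_pow_right two_pos (by omega : 2 ≤ j)))
    exact ((le_lin hF hn h32 hexc hr ho h3 (hE.2 _ hC) (c := 2 * (RkLin.rk n + 1) + 1) hd).lo hC).le (by omega)

end Cfsg.Agent.TwoF.XL.UP2

namespace Cfsg.Agent.TwoF.XL

open Gen UP2

/-- **`p = 2`, small unitary groups in odd characteristic** -/
theorem up2 : UP2 := by
  intro F _ _ n q hF h
  have hq : q.Prime := by rcases h with ⟨-, rfl | rfl | rfl⟩ | ⟨-, rfl⟩ <;> norm_num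
  have := Fact.mk hq
  have : CharP F q := by
    obtain ⟨p, k, hp, hc, e, -⟩ := LieClassical.HermBasic.exists_prime_pow hF
    have := Fact.mk hp
    rwa [(Nat.prime_dvd_prime_iff_eq hp hq).1 (ClassicalGeometry.PSUAutSylow.prime_dvd_q p hF)] at hc
  rcases h with ⟨rfl, rfl | rfl | rfl⟩ | ⟨rfl, rfl⟩
  · exact ⟨row88_of_rank fun E hE => card_le hF le_rfl (r := 3) (by decide) hE, U33.row89_U33 hF⟩
  all_goals
    exact (noOff_gen hF (by omega) (by omega) (by simp) (by decide) (by decide) (by decide) (by decide)).row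

end Cfsg.Agent.TwoF.XL
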